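import Cfsg.Agent.ShapeThreeSL.Coordinates
import Cfsg.Agent.Classical.Symp.Card
import Cfsg.Agent.Classical.Symp.Simple

/-!
The stabiliser of a vector in `Sp(4,3)` and the centralizer of a transvection in `PSp(4,3)`.
-/

set_option autoImplicit false

namespace CfsgLib.ShapeThreeSL

open Matrix CfsgLib.Classical.Symp

local notation "SL23" => Matrix.SpecialLinearGroup (Fin 2) (ZMod 3)
local notation "Tr" => ZMod 3 × ZMod 3 × ZMod 3

variable {F : Type*} [Field F]

local notation "Mat" => Matrix (Fin 2 ⊕ Fin 2) (Fin 2 ⊕ Fin 2) F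
local notation "Sp4" => Matrix.symplecticGroup (Fin 2) F

/-- The unipotent matrices fixing `stdE 0`. -/
def umat (a b t : F) : Mat :=
  Matrix.fromBlocks !![1, 0; a, 1] 0 !![t, b; b, 0] !![1, -a; 0, 1]

/-- The Levi matrices fixing `stdE 0` and `stdF 0`. -/
def lmat (p q r s : F) : Mat :=
  Matrix.fromBlocks !![1, 0; 0, p] !![0, 0; 0, q] !![0, 0; 0, r] !![1, 0; 0, s]

theorem umat_mulVec (a b t : F) (x : Fin 2 ⊕ Fin 2 → F) :
    umat a b t *ᵥ x = Sum.elim ![x (Sum.inl 0), x (Sum.inl 1) + a * x (Sum.inl 0)]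
      ![x (Sum.inr 0) + t * x (Sum.inl 0) + b * x (Sum.inl 1) - a * x (Sum.inr 1),
        x (Sum.inr 1) + b * x (Sum.inl 0)] := by
  rw [umat, Matrix.fromBlocks_mulVec]
  funext i
  rcases i with i | i <;> fin_cases i <;>
    simp [Matrix.mulVec, dotProduct, Fin.sum_univ_two] <;> ring

theorem lmat_mulVec (p q r s : F) (x : Fin 2 ⊕ Fin 2 → F) :
    lmat p q r s *ᵥ x = Sum.elim ![x (Sum.inl 0), p * x (Sum.inl 1) + q * x (Sum.inr 1)]
      ![x (Sum.inr 0), r * x (Sum.inl 1) + s * x (Sum.inr 1)] := by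
  rw [lmat, Matrix.fromBlocks_mulVec]
  funext i
  rcases i with i | i <;> fin_cases i <;>
    simp [Matrix.mulVec, dotProduct, Fin.sum_univ_two]

theorem umat_mem (a b t : F) : umat a b t ∈ Sp4 := by
  rw [mem_symplecticGroup_iff_form]
  intro u v
  rw [umat_mulVec, umat_mulVec, form_apply, form_apply]
  simp [Fin.sum_univ_two]
  ring

theorem lmat_mem {p q r s : F} (h : p * s - q * r = 1) : lmat p q r s ∈ Sp4 := by
  rw [mem_symplecticGroup_iff_form]
  intro u v
  rw [lmat_mulVec, lmat_mulVec, form_apply, form_apply]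
  simp [Fin.sum_univ_two]
  linear_combination (u (Sum.inr 1) * v (Sum.inl 1) - u (Sum.inl 1) * v (Sum.inr 1)) * h

/-- The unipotent part of the model. -/
def modU (σ : ZMod 3 →+* F) (p : Tr) : vecStab (stdE (F := F) (0 : Fin 2)) :=
  ⟨⟨umat (σ p.1) (σ p.2.1) (-σ p.2.2), umat_mem _ _ _⟩, by
    rw [mem_vecStab]
    change umat _ _ _ *ᵥ stdE 0 = stdE 0
    rw [umat_mulVec]
    funext i
    rcases i with i | i <;> fin_cases i <;> simp [stdE, Pi.single_apply]⟩

/-- The Levi part of the model, as a function. -/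
def modLFun (σ : ZMod 3 →+* F) (A : SL23) : vecStab (stdE (F := F) (0 : Fin 2)) :=
  ⟨⟨lmat (σ (A.1 0 0)) (σ (A.1 0 1)) (σ (A.1 1 0)) (σ (A.1 1 1)), lmat_mem (by
    have := A.2
    rw [Matrix.det_fin_two] at this
    rw [← map_mul, ← map_mul, ← map_sub, this, map_one])⟩, by
    rw [mem_vecStab]
    change lmat _ _ _ _ *ᵥ stdE 0 = stdE 0
    rw [lmat_mulVec]
    funext i
    rcases i with i | i <;> fin_cases i <;> simp [stdE, Pi.single_apply]⟩

/-- The Levi part of the model. -/
def modL (σ : ZMod 3 →+* F) : SL23 →* vecStab (stdE (F := F) (0 : Fin 2)) :=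
  MonoidHom.mk' (modLFun σ) fun A B => Subtype.ext (symp_ext fun x => by
    rw [Subgroup.coe_mul, mul_mulVec]
    change lmat _ _ _ _ *ᵥ x = lmat _ _ _ _ *ᵥ (lmat _ _ _ _ *ᵥ x)
    rw [lmat_mulVec, lmat_mulVec, lmat_mulVec]
    funext i
    rcases i with i | i <;> fin_cases i <;>
      simp [Matrix.mul_apply, Fin.sum_univ_two] <;> ring)

theorem modU_mul (σ : ZMod 3 →+* F) (p q : Tr) : modU σ p * modU σ q = modU σ (hmul p q) :=
  Subtype.ext (symp_ext fun x => by
    rw [Subgroup.coe_mul, mul_mulVec]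
    change umat _ _ _ *ᵥ (umat _ _ _ *ᵥ x) = umat _ _ _ *ᵥ x
    rw [umat_mulVec, umat_mulVec, umat_mulVec]
    funext i
    rcases i with i | i <;> fin_cases i <;> simp [hmul] <;> ring)

theorem modL_modU (σ : ZMod 3 →+* F) (A : SL23) (p : Tr) :
    modL σ A * modU σ p = modU σ (hact A p) * modL σ A :=
  Subtype.ext (symp_ext fun x => by
    have hdet : σ (A.1 0 0) * σ (A.1 1 1) - σ (A.1 0 1) * σ (A.1 1 0) = 1 := by
      have := A.2
      rw [Matrix.det_fin_two] at this
      rw [← map_mul, ← map_mul, ← map_sub, this, map_one]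
    rw [Subgroup.coe_mul, Subgroup.coe_mul, mul_mulVec, mul_mulVec]
    change lmat _ _ _ _ *ᵥ (umat _ _ _ *ᵥ x) = umat _ _ _ *ᵥ (lmat _ _ _ _ *ᵥ x)
    rw [lmat_mulVec, umat_mulVec, umat_mulVec, lmat_mulVec]
    funext i
    rcases i with i | i <;> fin_cases i <;> simp [hact]
    · ring
    · linear_combination (σ p.1 * x (Sum.inr 1) - σ p.2.1 * x (Sum.inl 1)) * hdet
    · ring)

theorem model_inj {σ : ZMod 3 →+* F} (p : Tr) (A : SL23) (q : Tr) (B : SL23)
    (h : modU σ p * modL σ A = modU σ q * modL σ B) : p = q ∧ A = B := by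
  have hσ : Function.Injective σ := σ.injective
  have h' : ∀ x, umat (σ p.1) (σ p.2.1) (-σ p.2.2) *ᵥ
        (lmat (σ (A.1 0 0)) (σ (A.1 0 1)) (σ (A.1 1 0)) (σ (A.1 1 1)) *ᵥ x) =
      umat (σ q.1) (σ q.2.1) (-σ q.2.2) *ᵥ
        (lmat (σ (B.1 0 0)) (σ (B.1 0 1)) (σ (B.1 1 0)) (σ (B.1 1 1)) *ᵥ x) := by
    intro x
    have h2 := congrArg (fun g : vecStab (stdE (F := F) (0 : Fin 2)) => ((g : Sp4) : Mat) *ᵥ x) h
    simp only [Subgroup.coe_mul, mul_mulVec] at h2
    exact h2
  have e1 := h' (stdF 0)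
  rw [lmat_mulVec, lmat_mulVec, umat_mulVec, umat_mulVec] at e1
  have a1 := congrFun e1 (Sum.inl 1)
  have a2 := congrFun e1 (Sum.inr 1)
  have a3 := congrFun e1 (Sum.inr 0)
  simp [stdF, Pi.single_apply] at a1 a2 a3
  have hp1 : p.1 = q.1 := hσ a1
  have hp2 : p.2.1 = q.2.1 := hσ a2
  have hp3 : p.2.2 = q.2.2 := hσ a3
  obtain ⟨i, j, t⟩ := p
  obtain ⟨k, l, w⟩ := q
  simp only at hp1 hp2 hp3
  subst hp1 hp2 hp3
  refine ⟨rfl, ?_⟩
  have e2 := h' (stdF 1)
  have e3 := h' (stdE 1)
  rw [lmat_mulVec, lmat_mulVec, umat_mulVec, umat_mulVec] at e2 e3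
  have b1 := congrFun e2 (Sum.inl 1)
  have b2 := congrFun e2 (Sum.inr 1)
  have b3 := congrFun e3 (Sum.inl 1)
  have b4 := congrFun e3 (Sum.inr 1)
  simp [stdE, stdF, Pi.single_apply] at b1 b2 b3 b4
  apply Subtype.ext
  ext i j
  fin_cases i <;> fin_cases j
  · exact hσ b1
  · exact hσ b3
  · exact hσ b2
  · exact hσ b4

theorem card_vecStab_three [Fintype F] (hF : Fintype.card F = 3) :
    Nat.card (vecStab (stdE (F := F) (0 : Fin 2))) = 648 := by
  have hne : (stdE (0 : Fin 2) : Fin 2 ⊕ Fin 2 → F) ≠ 0 := fun e => by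
    simpa [stdE] using congrFun e (Sum.inr 0)
  rw [card_vecStab (m := 1) hne, card_symplecticGroup, hF]
  norm_num [Finset.prod_range_succ]

variable (F) in
/-- The transvection with centre `stdE 0`. -/
def transv : Sp4 := spT (stdE (0 : Fin 2)) 1

theorem transv_comm {g : Sp4} (hg : g ∈ vecStab (stdE (F := F) (0 : Fin 2))) :
    g * transv F = transv F * g := by
  rw [← mul_inv_eq_iff_eq_mul]
  change g * spT _ 1 * g⁻¹ = _
  rw [conj_spT, mem_vecStab.mp hg]
  rfl

theorem stdE_ne_zero : (stdE (0 : Fin 2) : Fin 2 ⊕ Fin 2 → F) ≠ 0 := fun e => by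
  simpa [stdE] using congrFun e (Sum.inr 0)

theorem transv_ne_one : transv F ≠ 1 := fun e => by
  have h := congrArg (fun g : Sp4 => (g : Mat) *ᵥ stdF 0) e
  simp only [transv, spT_mulVec, Submonoid.coe_one, Matrix.one_mulVec, form_stdF_stdE, if_pos] at h
  simp [stdE_ne_zero] at h

theorem transv_pow_three (h3 : (3 : F) = 0) : transv F ^ 3 = 1 := by
  rw [transv, pow_succ, pow_two, ← spT_add, ← spT_add, show (1 : F) + 1 + 1 = 0 by rw [← h3]; norm_num,
    spT_zero]

/-- The projection to `PSp₄`. -/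
def proj (F : Type*) [Field F] : Matrix.symplecticGroup (Fin 2) F →* Cfsg.PSp 2 F :=
  QuotientGroup.mk' _

theorem negOne_mem_center : negOne 2 F ∈ Subgroup.center Sp4 := mem_center_iff.mpr (Or.inr rfl)

theorem centralizer_proj_transv (h3 : (3 : F) = 0) :
    Subgroup.centralizer {proj F (transv F)} = (vecStab (stdE (F := F) (0 : Fin 2))).map (proj F) := by
  have h2 : (2 : F) ≠ 0 := fun h => one_ne_zero (α := F) (by linear_combination h3 - h)
  ext y
  rw [Subgroup.mem_centralizer_singleton_iff]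
  constructor
  · intro hy
    obtain ⟨g, rfl⟩ := QuotientGroup.mk'_surjective _ y
    change proj F g * proj F (transv F) = proj F (transv F) * proj F g at hy
    have hconj : proj F (g * transv F * g⁻¹) = proj F (transv F) := by
      rw [map_mul, map_mul, map_inv, hy, mul_inv_cancel_right]
    obtain ⟨u, hu, hu'⟩ := (QuotientGroup.mk'_eq_mk' _).mp hconj
    -- both sides are transvections, so `u = 1`
    have hu1 : u = 1 := by
      rcases mem_center_iff.mp hu with h | h
      · exact Subtype.ext h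
      · exfalso
        have hu3 : u ^ 3 = 1 := by
          have hc : Commute (g * transv F * g⁻¹) u := (Subgroup.mem_center_iff.mp hu _)
          have e2 : (g * transv F * g⁻¹ * u) ^ 3 = 1 := by rw [hu', transv_pow_three h3]
          rw [hc.mul_pow, conj_pow, transv_pow_three h3, mul_one, mul_inv_cancel, one_mul] at e2
          exact e2
        have h4 := congrArg (fun x : Sp4 => (x : Mat)) hu3
        simp only [SubmonoidClass.coe_pow, h, Submonoid.coe_one] at h4
        have h5 := congrFun (congrFun h4 (Sum.inl 0)) (Sum.inl 0)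
        simp [pow_succ] at h5
        exact h2 (by linear_combination -h5)
    rw [hu1, mul_one, show transv F = spT (stdE (0 : Fin 2)) 1 from rfl, conj_spT] at hu'
    obtain ⟨x, hx⟩ := exists_form_eq_one (stdE_ne_zero (F := F))
    set w := (g : Mat) *ᵥ stdE (0 : Fin 2) with hw
    have h6 := congrArg (fun a : Sp4 => (a : Mat) *ᵥ x) hu'
    simp only [spT_mulVec, one_mul, add_right_inj] at h6
    rw [form_swap x (stdE 0), hx, neg_one_smul] at h6
    -- `h6 : B x w • w = -stdE 0`
    have h7 : Cfsg.sympForm 2 F x w * Cfsg.sympForm 2 F x w = 1 := by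
      have h8 := congrArg (Cfsg.sympForm 2 F x) h6
      rw [form_smul_right, form_neg_right, form_swap x (stdE 0), hx, neg_neg] at h8
      exact h8
    rcases mul_self_eq_one_iff.mp h7 with e | e
    · rw [e, one_smul] at h6
      refine ⟨g * negOne 2 F, ?_, ?_⟩
      · change ((g * negOne 2 F : Sp4) : Mat) *ᵥ stdE 0 = stdE 0
        rw [mul_mulVec]
        change (g : Mat) *ᵥ ((-1 : Mat) *ᵥ stdE 0) = stdE 0
        rw [Matrix.neg_mulVec, Matrix.one_mulVec, Matrix.mulVec_neg, ← hw, h6, neg_neg]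
      · rw [map_mul, show proj F (negOne 2 F) = 1 from
          (QuotientGroup.eq_one_iff _).mpr negOne_mem_center, mul_one]
        rfl
    · rw [e, neg_one_smul, neg_inj] at h6
      exact ⟨g, h6, rfl⟩
  · rintro ⟨g, hg, rfl⟩
    rw [← map_mul, ← map_mul, transv_comm hg]

theorem proj_injOn {g : vecStab (stdE (F := F) (0 : Fin 2))} (h3 : (3 : F) = 0)
    (h : proj F (g : Sp4) = 1) : g = 1 := by
  have h2 : (2 : F) ≠ 0 := fun h' => one_ne_zero (α := F) (by linear_combination h3 - h')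
  rcases mem_center_iff.mp ((QuotientGroup.eq_one_iff _).mp h) with e | e
  · exact Subtype.ext (Subtype.ext e)
  · exfalso
    have h1 := mem_vecStab.mp g.2
    rw [e, Matrix.neg_mulVec, Matrix.one_mulVec] at h1
    have h4 := congrFun h1 (Sum.inr 0)
    simp [stdE] at h4
    exact h2 (by linear_combination -h4)

end CfsgLib.ShapeThreeSL
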