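import Cfsg.Agent.ShapeThreeSL.Setup
import Mathlib.GroupTheory.Sylow

/-!
Groups of shape `3^{1+2} : SL(2,3)`: the inverting involution and the complement centralizing it.
-/

set_option autoImplicit false

namespace CfsgLib.ShapeThreeSL

open scoped MatrixGroups

local notation "SL23" => Matrix.SpecialLinearGroup (Fin 2) (ZMod 3)

theorem sl_eq_sq_mul_sq : ∀ g : SL23, ∃ h k : SL23, g = h ^ 2 * k ^ 2 := by
  decide +kernel

theorem sl_four_mul_pow : ∀ a g : SL23, a ^ 3 = 1 → a ≠ 1 → ∃ i : Fin 3, (g * a ^ (i : ℕ)) ^ 4 = 1 := by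
  decide +kernel

theorem sl_card_pow_four : Nat.card {g : SL23 // g ^ 4 = 1} = 8 := by
  rw [Nat.card_eq_fintype_card]
  decide +kernel

variable {X : Type*} [Group X] [Finite X]

namespace Setup

variable (d : Setup X)

theorem c_pow : d.c ^ 3 = 1 := d.pow_three _ d.c_mem

theorem orderOf_c : orderOf d.c = 3 := by
  have h : Fact (Nat.Prime 3) := ⟨Nat.prime_three⟩
  exact orderOf_eq_prime d.c_pow d.c_ne

theorem zpowers_le_R : Subgroup.zpowers d.c ≤ d.R := Subgroup.zpowers_le.mpr d.c_mem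

theorem card_Z : Nat.card (Subgroup.zpowers d.c) = 3 := by
  rw [Nat.card_zpowers, d.orderOf_c]

theorem eq_one_of_sq_eq_one {r : X} (hr : r ∈ d.R) (h : r ^ 2 = 1) : r = 1 := by
  have h3 := d.pow_three r hr
  calc r = r ^ 3 * (r ^ 2)⁻¹ := by group
    _ = 1 := by rw [h3, h]; simp

theorem c_comm_R {r : X} (hr : r ∈ d.R) : r * d.c = d.c * r :=
  (((d.center_eq d.c d.c_mem).mpr (Subgroup.mem_zpowers _)) r hr).symm

theorem exists_not_Z : ∃ r ∈ d.R, r ∉ Subgroup.zpowers d.c := by
  by_contra h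
  push_neg at h
  have h1 := Subgroup.card_le_of_le (K := Subgroup.zpowers d.c) h
  rw [d.card_R, d.card_Z] at h1
  omega

/-- `c` is central in the whole group. -/
theorem c_comm (x : X) : x * d.c = d.c * x := by
  have hsq : ∀ y : X, y ^ 2 * d.c = d.c * y ^ 2 := by
    intro y
    have hmem : y * d.c * y⁻¹ ∈ Subgroup.zpowers d.c := by
      refine (d.center_eq _ (d.normal.conj_mem _ d.c_mem y)).mp fun s hs => ?_
      have hs' := d.normal.conj_mem' s hs y
      have h1 := d.c_comm_R hs'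
      calc y * d.c * y⁻¹ * s = y * (d.c * (y⁻¹ * s * y)) * y⁻¹ := by group
        _ = y * ((y⁻¹ * s * y) * d.c) * y⁻¹ := by rw [h1]
        _ = s * (y * d.c * y⁻¹) := by group
    have hne : y * d.c * y⁻¹ ≠ 1 := fun h => d.c_ne (conj_eq_one_iff.mp h)
    obtain ⟨k, hk⟩ := Subgroup.mem_zpowers_iff.mp hmem
    have hk2 : y ^ 2 * d.c * (y ^ 2)⁻¹ = d.c ^ (k * k) := by
      calc y ^ 2 * d.c * (y ^ 2)⁻¹ = y * (y * d.c * y⁻¹) * y⁻¹ := by simp [pow_two, mul_assoc]
        _ = y * d.c ^ k * y⁻¹ := by rw [hk]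
        _ = (d.c ^ k) ^ k := by rw [← conj_zpow, hk]
        _ = d.c ^ (k * k) := by rw [zpow_mul]
    have h3 : (d.c : X) ^ (k * k) = d.c ^ (1 : ℤ) := by
      rw [zpow_eq_zpow_iff_modEq, d.orderOf_c]
      have hk0 : k % 3 ≠ 0 := by
        intro h0
        apply hne
        rw [← hk, ← zpow_mod_orderOf, d.orderOf_c]
        simp [h0]
      have : k % 3 = 1 ∨ k % 3 = 2 := by omega
      change (k * k) % ((3 : ℕ) : ℤ) = 1 % ((3 : ℕ) : ℤ)
      rw [Int.mul_emod]
      rcases this with h | h <;> simp [h]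
    rw [h3, zpow_one, mul_inv_eq_iff_eq_mul] at hk2
    exact hk2
  obtain ⟨h, k, hg⟩ := sl_eq_sq_mul_sq (d.π x)
  obtain ⟨a, rfl⟩ := d.π_surj h
  obtain ⟨b, rfl⟩ := d.π_surj k
  have hr : (a ^ 2 * b ^ 2)⁻¹ * x ∈ d.R := by
    rw [← d.π_ker, map_mul, map_inv, map_mul, map_pow, map_pow, hg, inv_mul_cancel]
  have h1 : Commute (a ^ 2 * b ^ 2) d.c := Commute.mul_left (hsq a) (hsq b)
  have h2 : Commute ((a ^ 2 * b ^ 2)⁻¹ * x) d.c := d.c_comm_R hr
  have h3 := Commute.mul_left h1 h2
  rwa [mul_inv_cancel_left] at h3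

theorem Z_comm (x : X) {u : X} (hu : u ∈ Subgroup.zpowers d.c) : x * u = u * x := by
  obtain ⟨k, rfl⟩ := Subgroup.mem_zpowers_iff.mp hu
  exact (Commute.zpow_right (d.c_comm x) k)

theorem exists_z : ∃ z : X, z * z = 1 ∧ d.π z = -1 := by
  obtain ⟨y, hy⟩ := d.π_surj (-1)
  have h2 : y ^ 2 ∈ d.R := by rw [← d.π_ker, map_pow, hy]; decide +kernel
  have h6 := d.pow_three _ h2
  refine ⟨y ^ 3, ?_, by rw [map_pow, hy]; decide +kernel⟩
  calc y ^ 3 * y ^ 3 = (y ^ 2) ^ 3 := by group
    _ = 1 := h6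

variable {z : X}

/-- An element of `R` fixed by `z` up to the centre is fixed by `z`. -/
theorem fixed_of_fixed_mod (hz : z * z = 1) {w : X} (hw : w ∈ d.R)
    (h : z * w * z * w⁻¹ ∈ Subgroup.zpowers d.c) : z * w * z = w := by
  set u := z * w * z * w⁻¹ with hu
  have hzw : z * w * z = u * w := by rw [hu]; group
  have h1 : z * u * z = u := by rw [d.Z_comm z h, mul_assoc, hz, mul_one]
  have h2 : w = u * (u * w) := by
    calc w = (z * z) * w * (z * z) := by rw [hz]; group
      _ = z * (z * w * z) * z := by group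
      _ = z * (u * w) * z := by rw [hzw]
      _ = (z * u) * (z * z) * (w * z) := by rw [hz]; group
      _ = (z * u * z) * (z * w * z) := by group
      _ = u * (u * w) := by rw [h1, hzw]
  have h3 : u ^ 2 = 1 := by
    calc u ^ 2 = u * (u * w) * w⁻¹ := by simp [pow_two, mul_assoc]
      _ = 1 := by rw [← h2]; group
  rw [hzw, d.eq_one_of_sq_eq_one (d.zpowers_le_R h) h3, one_mul]

theorem not_comm_R (hz : z * z = 1) (hπ : d.π z = -1) : ∃ r ∈ d.R, z * r * z ≠ r := by
  by_contra h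
  push_neg at h
  have hcomm : ∀ r ∈ d.R, z * r = r * z := fun r hr => by
    calc z * r = z * r * (z * z) := by rw [hz, mul_one]
      _ = (z * r * z) * z := by group
      _ = r * z := by rw [h r hr]
  have hcent : ∀ x : X, x * z * x⁻¹ = z := by
    intro x
    set y := x * z * x⁻¹ with hy
    have hy2 : y * y = 1 := by rw [hy]; simp [mul_assoc, hz, ← mul_assoc z z]
    have hr : z⁻¹ * y ∈ d.R := by
      rw [← d.π_ker, hy, map_mul, map_inv, map_mul, map_mul, map_inv, hπ]
      have : Commute (d.π x) (-1 : SL23) := (Commute.neg_one_right _)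
      rw [this.eq, mul_inv_cancel_right, inv_mul_cancel]
    have hycomm : ∀ s ∈ d.R, y * s = s * y := by
      intro s hs
      have h1 := hcomm _ (d.normal.conj_mem' s hs x)
      calc y * s = x * (z * (x⁻¹ * s * x)) * x⁻¹ := by rw [hy]; group
        _ = x * ((x⁻¹ * s * x) * z) * x⁻¹ := by rw [h1]
        _ = s * y := by rw [hy]; group
    set u := z⁻¹ * y with hu
    have hyu : y = z * u := by rw [hu]; group
    have hu2 : u ^ 2 = 1 := by
      calc u ^ 2 = (z * z) * u * u := by rw [hz, one_mul, pow_two]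
        _ = z * (z * u) * u := by group
        _ = z * (u * z) * u := by rw [hcomm u hr]
        _ = (z * u) * (z * u) := by group
        _ = 1 := by rw [← hyu, hy2]
    rw [hyu, d.eq_one_of_sq_eq_one hr hu2, mul_one]
  have hN : (Subgroup.zpowers z).Normal := by
    refine ⟨fun n hn g => ?_⟩
    obtain ⟨k, rfl⟩ := Subgroup.mem_zpowers_iff.mp hn
    rw [← conj_zpow, hcent]
    exact Subgroup.zpow_mem_zpowers z k
  have h2 : IsPGroup 2 (Subgroup.zpowers z) := by
    intro g
    refine ⟨1, Subtype.ext ?_⟩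
    obtain ⟨k, hk⟩ := Subgroup.mem_zpowers_iff.mp g.2
    rw [SubmonoidClass.coe_pow, ← hk, pow_one, pow_two, ← zpow_add, ← two_mul, zpow_mul, zpow_two, hz,
      one_zpow, Subgroup.coe_one]
  have h1 := d.O2 _ hN h2
  rw [Subgroup.zpowers_eq_bot] at h1
  rw [h1, map_one] at hπ
  exact absurd hπ (by decide +kernel)

/-- The centraliser in `R` of a noncentral element. -/
theorem centralizer_in_R {w : X} (hw : w ∈ d.R) (hw' : w ∉ Subgroup.zpowers d.c) {v : X} (hv : v ∈ d.R)
    (hvw : v * w = w * v) : ∃ i : Fin 3, ∃ u ∈ Subgroup.zpowers d.c, v = w ^ (i : ℕ) * u := by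
  classical
  let C : Subgroup X := d.R ⊓ Subgroup.centralizer {w}
  have hCR : C ≤ d.R := inf_le_left
  let f : Fin 3 × Subgroup.zpowers d.c → C := fun p =>
    ⟨w ^ (p.1 : ℕ) * p.2, d.R.mul_mem (d.R.pow_mem hw _) (d.zpowers_le_R p.2.2),
      Subgroup.mem_centralizer_singleton_iff.mpr
        ((Commute.mul_left (Commute.pow_self w _) (d.Z_comm w p.2.2).symm).eq)⟩
  have hf : Function.Injective f := by
    rintro ⟨i, u⟩ ⟨j, v⟩ h
    have h' : w ^ (i : ℕ) * (u : X) = w ^ (j : ℕ) * v := congrArg Subtype.val h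
    have hij : i = j := by
      by_contra hij
      apply hw'
      have hmem : w ^ ((i : ℕ) : ℤ) * (w ^ ((j : ℕ) : ℤ))⁻¹ ∈ Subgroup.zpowers d.c := by
        rw [zpow_natCast, zpow_natCast]
        have : w ^ (i : ℕ) * (w ^ (j : ℕ))⁻¹ = (v : X) * (u : X)⁻¹ := by
          rw [mul_inv_eq_iff_eq_mul]
          calc w ^ (i : ℕ) = w ^ (j : ℕ) * v * (u : X)⁻¹ := eq_mul_inv_iff_mul_eq.mpr h'
            _ = v * (u : X)⁻¹ * w ^ (j : ℕ) := by
              rw [mul_assoc, d.Z_comm _ (mul_mem v.2 (inv_mem u.2))]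
        rw [this]
        exact mul_mem v.2 (inv_mem u.2)
      rw [← zpow_neg, ← zpow_add] at hmem
      have h3 : w ^ (3 : ℤ) = 1 := by exact_mod_cast d.pow_three w hw
      have hne : ((i : ℕ) : ℤ) ≠ (j : ℕ) := fun h => hij (Fin.ext (by exact_mod_cast h))
      have hi := i.isLt
      have hj := j.isLt
      have hcases : ((i : ℕ) : ℤ) + -((j : ℕ) : ℤ) = 1 ∨ ((i : ℕ) : ℤ) + -((j : ℕ) : ℤ) = -1 ∨
          ((i : ℕ) : ℤ) + -((j : ℕ) : ℤ) = 2 ∨ ((i : ℕ) : ℤ) + -((j : ℕ) : ℤ) = -2 := by omega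
      rcases hcases with e | e | e | e <;> rw [e] at hmem
      · simpa using hmem
      · simpa using inv_mem hmem
      · have : w ^ (2 : ℤ) = w⁻¹ := by
          rw [← zpow_neg_one, show (2 : ℤ) = 3 + -1 by norm_num, zpow_add, h3, one_mul]
        rw [this] at hmem; simpa using inv_mem hmem
      · have : w ^ (-2 : ℤ) = w := by
          rw [show (-2 : ℤ) = 1 + -3 by norm_num, zpow_add, zpow_neg, h3]; simp
        rwa [this] at hmem
    subst hij
    exact Prod.ext rfl (Subtype.ext (mul_left_cancel h'))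
  have h9 : 9 ≤ Nat.card C := by
    have := Nat.card_le_card_of_injective f hf
    rwa [Nat.card_prod, Nat.card_fin, d.card_Z] at this
  have h27 : Nat.card C ∣ 27 := d.card_R ▸ Subgroup.card_dvd_of_le hCR
  have hne : Nat.card C ≠ 27 := by
    intro h
    have hC : C = d.R := Subgroup.eq_of_le_of_card_ge hCR (by rw [h, d.card_R])
    apply hw'
    refine (d.center_eq w hw).mp fun s hs => ?_
    have : s ∈ C := hC.symm ▸ hs
    exact (Subgroup.mem_centralizer_singleton_iff.mp this.2).symm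
  have hCard : Nat.card C = 9 := by
    have hle := Nat.le_of_dvd (by norm_num) h27
    interval_cases hc : Nat.card C <;> omega
  have hbij : Function.Bijective f := by
    rw [Nat.bijective_iff_injective_and_card]
    exact ⟨hf, by rw [Nat.card_prod, Nat.card_fin, d.card_Z, hCard]⟩
  obtain ⟨⟨i, u⟩, hiu⟩ := hbij.2 ⟨v, hv, Subgroup.mem_centralizer_singleton_iff.mpr hvw⟩
  exact ⟨i, u, u.2, (congrArg Subtype.val hiu).symm⟩

/-- `z` inverts `R` modulo its centre. -/
theorem inverts_mod (hz : z * z = 1) (hπ : d.π z = -1) {r : X} (hr : r ∈ d.R) :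
    r * (z * r * z) ∈ Subgroup.zpowers d.c := by
  have hzR : ∀ s ∈ d.R, z * s * z ∈ d.R := fun s hs => by
    have := d.normal.conj_mem s hs z
    rwa [inv_eq_of_mul_eq_one_left hz] at this
  have hfix : ∀ w ∈ d.R, z * w * z * w⁻¹ ∈ Subgroup.zpowers d.c → w ∈ Subgroup.zpowers d.c := by
    intro w hw h
    have hw2 := d.fixed_of_fixed_mod hz hw h
    by_contra hw'
    obtain ⟨s, hs, hs'⟩ := d.not_comm_R hz hπ
    set v := s⁻¹ * (z * s * z) with hv
    have hvR : v ∈ d.R := d.R.mul_mem (d.R.inv_mem hs) (hzR s hs)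
    have hu := d.comm_mem w hw s hs
    set u := w * s * w⁻¹ * s⁻¹ with hudef
    have hu2 : w * (z * s * z) * w⁻¹ * (z * s * z)⁻¹ = u := by
      have h1 : z * u * z = u := by rw [d.Z_comm z hu, mul_assoc, hz, mul_one]
      have hzi : z⁻¹ = z := inv_eq_of_mul_eq_one_left hz
      calc w * (z * s * z) * w⁻¹ * (z * s * z)⁻¹
          = (z * w * z) * (z * s * z) * (z * w * z)⁻¹ * (z * s * z)⁻¹ := by rw [hw2]
        _ = z * (w * (z * z) * s * w⁻¹ * (z⁻¹ * z⁻¹) * s⁻¹) * z⁻¹ := by group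
        _ = z * u * z := by rw [← mul_inv_rev, hz, inv_one, hzi, hudef]; group
        _ = u := h1
    have hvw : v * w = w * v := by
      have h1 : z * s * z = s * v := by rw [hv]; group
      rw [h1] at hu2
      have h2 : w * s * v * w⁻¹ * v⁻¹ * s⁻¹ = w * s * w⁻¹ * s⁻¹ := by
        rw [← hudef, ← hu2]; group
      have h3 : v * w⁻¹ * v⁻¹ = w⁻¹ := by
        calc v * w⁻¹ * v⁻¹ = (w * s)⁻¹ * (w * s * v * w⁻¹ * v⁻¹ * s⁻¹) * s := by group
          _ = (w * s)⁻¹ * (w * s * w⁻¹ * s⁻¹) * s := by rw [h2]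
          _ = w⁻¹ := by group
      calc v * w = (v * w⁻¹ * v⁻¹)⁻¹ * v := by group
        _ = w * v := by rw [h3, inv_inv]
    obtain ⟨i, u', hu', hvi⟩ := d.centralizer_in_R hw hw' hvR hvw
    have hzv : z * v * z = v := by
      have hc1 : z * u' * z = u' := by rw [d.Z_comm z hu', mul_assoc, hz, mul_one]
      have hzi : z⁻¹ = z := inv_eq_of_mul_eq_one_left hz
      have hwp : z * w ^ (i : ℕ) * z = w ^ (i : ℕ) := by
        have := conj_pow (i := (i : ℕ)) (a := z) (b := w)
        rw [hzi, hw2] at this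
        exact this.symm
      calc z * v * z = (z * w ^ (i : ℕ)) * (z * z) * (u' * z) := by rw [hvi, hz]; group
        _ = (z * w ^ (i : ℕ) * z) * (z * u' * z) := by group
        _ = v := by rw [hwp, hc1, hvi]
    have hv2 : v ^ 2 = 1 := by
      have h1 : z * s * z = s * v := by rw [hv]; group
      have h2 : s = s * v * v := by
        calc s = (z * z) * s * (z * z) := by rw [hz]; group
          _ = z * (z * s * z) * z := by group
          _ = z * (s * v) * z := by rw [h1]
          _ = (z * s) * (z * z) * (v * z) := by rw [hz]; group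
          _ = (z * s * z) * (z * v * z) := by group
          _ = s * v * v := by rw [h1, hzv]
      calc v ^ 2 = s⁻¹ * (s * v * v) := by simp [pow_two, mul_assoc]
        _ = 1 := by rw [← h2]; group
    apply hs'
    have h1 : z * s * z = s * v := by rw [hv]; group
    rw [h1, d.eq_one_of_sq_eq_one hvR hv2, mul_one]
  refine hfix _ (d.R.mul_mem hr (hzR r hr)) ?_
  have h : z * (r * (z * r * z)) * z * (r * (z * r * z))⁻¹ =
      (z * r * z) * r * (z * r * z)⁻¹ * r⁻¹ := by
    calc z * (r * (z * r * z)) * z * (r * (z * r * z))⁻¹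
        = (z * r * z) * r * (z * z) * (z * r * z)⁻¹ * r⁻¹ := by group
      _ = _ := by rw [hz, mul_one]
  rw [h]
  exact d.comm_mem _ (hzR r hr) _ hr

theorem mem_Z_of_fixed (hz : z * z = 1) (hπ : d.π z = -1) {r : X} (hr : r ∈ d.R)
    (h : z * r = r * z) : r ∈ Subgroup.zpowers d.c := by
  have h1 := d.inverts_mod hz hπ hr
  rw [h, mul_assoc, hz, mul_one] at h1
  have h3 := d.pow_three r hr
  have : r = ((r * r)⁻¹ : X) := by
    rw [eq_inv_iff_mul_eq_one, ← mul_assoc, ← pow_two, ← pow_succ]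
    exact h3
  rw [this]
  exact inv_mem h1

/-- Elements outside `R` act nontrivially on `R` modulo its centre. -/
theorem not_trivial_mod {x : X} (hx : x ∉ d.R) :
    ∃ r ∈ d.R, x * r * x⁻¹ * r⁻¹ ∉ Subgroup.zpowers d.c := by
  by_contra hc
  push_neg at hc
  obtain ⟨z, hz, hπ⟩ := d.exists_z
  let K : Subgroup X :=
    { carrier := {y | ∀ r ∈ d.R, y * r * y⁻¹ * r⁻¹ ∈ Subgroup.zpowers d.c}
      one_mem' := fun r _ => by simp
      mul_mem' := fun {a b} ha hb r hr => by
        have h1 := ha _ (d.normal.conj_mem r hr b)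
        have h2 := mul_mem h1 (hb r hr)
        convert h2 using 1
        group
      inv_mem' := fun {a} ha r hr => by
        have h1 := inv_mem (ha _ (d.normal.conj_mem r hr a⁻¹))
        convert h1 using 1
        group }
  have hKn : K.Normal := by
    refine ⟨fun y hy g r hr => ?_⟩
    have h1 := hy _ (d.normal.conj_mem r hr g⁻¹)
    have h2 : g * y * g⁻¹ * r * (g * y * g⁻¹)⁻¹ * r⁻¹ =
        g * (y * (g⁻¹ * r * g⁻¹⁻¹) * y⁻¹ * (g⁻¹ * r * g⁻¹⁻¹)⁻¹) * g⁻¹ := by group
    rw [h2, d.Z_comm g h1, mul_inv_cancel_right]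
    exact h1
  have : (K.map d.π).Normal := hKn.map _ d.π_surj
  have hne : d.π x ≠ 1 := fun h => hx ((d.π_ker x).mp h)
  obtain ⟨y, hy, hyπ⟩ := sl_neg_one_mem_normal (Subgroup.mem_map_of_mem d.π (show x ∈ K from hc)) hne
  have hr0 : y⁻¹ * z ∈ d.R := by rw [← d.π_ker, map_mul, map_inv, hyπ, hπ, inv_mul_cancel]
  have hRK : y⁻¹ * z ∈ K := fun r hr => d.comm_mem _ hr0 r hr
  have hzK : z ∈ K := by
    have := K.mul_mem hy hRK
    rwa [mul_inv_cancel_left] at this
  obtain ⟨r, hr, hr'⟩ := d.exists_not_Z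
  apply hr'
  have h1 := hzK r hr
  rw [inv_eq_of_mul_eq_one_left hz] at h1
  exact d.mem_Z_of_fixed hz hπ hr (by
    have h2 := d.fixed_of_fixed_mod hz hr h1
    calc z * r = z * r * (z * z) := by rw [hz, mul_one]
      _ = (z * r * z) * z := by group
      _ = r * z := by rw [h2])

/-- An element of order 3 outside `R` commuting with `z`. -/
theorem exists_x₀ (hz : z * z = 1) (hπ : d.π z = -1) :
    ∃ x : X, z * x = x * z ∧ x ^ 3 = 1 ∧ d.π x ≠ 1 := by
  have hzi : z⁻¹ = z := inv_eq_of_mul_eq_one_left hz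
  have hER : ¬ d.E ≤ d.R := by
    intro h
    have hEq : d.E = d.R := Subgroup.eq_of_le_of_card_ge h (by rw [d.card_E, d.card_R])
    obtain ⟨r, hr, hr'⟩ := d.exists_not_Z
    exact hr' ((d.center_eq r hr).mp fun s hs => d.E_comm r (hEq.symm ▸ hr) s (hEq.symm ▸ hs))
  obtain ⟨x, hxE, hxR⟩ := Set.not_subset.mp hER
  set y := z * x * z with hy
  -- an element `w` of `E ∩ R` outside `Z`
  have hw : ∃ w ∈ d.R, w ∈ d.E ∧ w ∉ Subgroup.zpowers d.c := by
    by_contra h
    push_neg at h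
    have h1 : Nat.card ((d.π.comp d.E.subtype).range) ∣ 24 := sl_card ▸ Subgroup.card_subgroup_dvd_card _
    have h2 : Nat.card ((d.π.comp d.E.subtype).range) ∣ 27 := d.card_E ▸ Subgroup.card_range_dvd _
    have h3 : Nat.card ((d.π.comp d.E.subtype).range) ∣ 3 := Nat.dvd_gcd h1 h2
    have hmem : ∀ e : (d.π.comp d.E.subtype).ker, ((e : d.E) : X) ∈ Subgroup.zpowers d.c := fun e =>
      h _ ((d.π_ker _).mp e.2) (e : d.E).2
    have h4 : Nat.card (d.π.comp d.E.subtype).ker ≤ 3 := by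
      refine le_trans ?_ d.card_Z.le
      refine Nat.card_le_card_of_injective (fun e => ⟨_, hmem e⟩) fun a b h => ?_
      exact Subtype.ext (Subtype.ext (by simpa using h))
    have h5 := Subgroup.card_eq_card_quotient_mul_card_subgroup (d.π.comp d.E.subtype).ker
    rw [Nat.card_congr (QuotientGroup.quotientKerEquivRange _).toEquiv, d.card_E] at h5
    have h6 := Nat.le_of_dvd (by norm_num) h3
    have h7 := Nat.mul_le_mul h6 h4
    omega
  obtain ⟨w, hwR, hwE, hwZ⟩ := hw
  have hxw : x * w = w * x := d.E_comm x hxE w hwE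
  obtain ⟨u, hu, hzw⟩ : ∃ u ∈ Subgroup.zpowers d.c, z * w * z = w⁻¹ * u :=
    ⟨_, d.inverts_mod hz hπ hwR, by group⟩
  have hyw : y * w = w * y := by
    have hzu : z * u * z = u := by rw [d.Z_comm z hu, mul_assoc, hz, mul_one]
    have hx' : Commute (z * x * z⁻¹) (z * (w⁻¹ * u) * z⁻¹) :=
      (Commute.mul_right (Commute.inv_right hxw) (d.Z_comm x hu)).conj z
    rw [hzi, ← hy] at hx'
    have h1 : z * (w⁻¹ * u) * z = w := by rw [← hzw]; simp [mul_assoc, hz, ← mul_assoc z z]
    rw [h1] at hx'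
    exact hx'
  set r := x⁻¹ * y with hr
  have hrR : r ∈ d.R := by
    rw [← d.π_ker, hr, hy, map_mul, map_inv, map_mul, map_mul, hπ,
      (Commute.neg_one_left (d.π x)).eq, mul_assoc, neg_mul_neg, one_mul, mul_one, inv_mul_cancel]
  have hrw : r * w = w * r := (Commute.mul_left (Commute.inv_left hxw) hyw).eq
  obtain ⟨i, u', hu', hri⟩ := d.centralizer_in_R hwR hwZ hrR hrw
  have hxy : Commute x y := by
    have hxr : Commute x r := hri ▸ Commute.mul_right (Commute.pow_right hxw _) (d.Z_comm x hu')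
    have : y = x * r := by rw [hr]; group
    rw [this]
    exact Commute.mul_right (Commute.refl x) hxr
  have hx3 := d.E_pow x hxE
  have hy3 : y ^ 3 = 1 := by
    rw [hy, show z * x * z = z * x * z⁻¹ by rw [hzi], conj_pow, hx3]
    simp
  have hπy : d.π y = d.π x := by
    have h1 : d.π r = 1 := (d.π_ker r).mpr hrR
    rw [hr, map_mul, map_inv, inv_mul_eq_one] at h1
    exact h1.symm
  refine ⟨(x * y) ^ 2, ?_, ?_, ?_⟩
  · have h1 : z * (x * y) * z = x * y := by
      calc z * (x * y) * z = (z * x) * (z * z) * (y * z) := by rw [hz]; group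
        _ = (z * x * z) * (z * y * z) := by group
        _ = y * x := by rw [hy]; simp [mul_assoc, hz, ← mul_assoc z z]
        _ = x * y := hxy.eq.symm
    have h2 : Commute z (x * y) := by
      calc z * (x * y) = z * (x * y) * (z * z) := by rw [hz, mul_one]
        _ = z * (x * y) * z * z := by group
        _ = x * y * z := by rw [h1]
    exact (h2.pow_right 2).eq
  · rw [← pow_mul, hxy.mul_pow, show 2 * 3 = 3 * 2 from rfl, pow_mul, pow_mul, hx3, hy3]
    simp
  · rw [map_pow, map_mul, hπy, ← pow_two, ← pow_mul]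
    have h3 : d.π x ^ 3 = 1 := by rw [← map_pow, hx3, map_one]
    rw [show 2 * 2 = 3 + 1 from rfl, pow_add, h3, one_mul, pow_one]
    exact fun h => hxR ((d.π_ker x).mp h)

theorem exists_section (hz : z * z = 1) (hπ : d.π z = -1) :
    ∃ σ : SL23 →* X, (∀ g, d.π (σ g) = g) ∧ ∀ g, z * σ g = σ g * z := by
  classical
  have hzi : z⁻¹ = z := inv_eq_of_mul_eq_one_left hz
  set C : Subgroup X := Subgroup.centralizer {z} with hC
  have hmemC : ∀ {x : X}, x ∈ C ↔ x * z = z * x := fun {x} => Subgroup.mem_centralizer_singleton_iff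
  -- `π` is onto on `C`
  have hsurj : Function.Surjective (d.π.comp C.subtype) := by
    intro g
    obtain ⟨x, hx⟩ := d.π_surj g
    set r := z * (x * z * x⁻¹) with hr
    have hrR : r ∈ d.R := by
      rw [← d.π_ker, hr, map_mul, map_mul, map_mul, map_inv, hπ,
        (Commute.neg_one_right (d.π x)).eq, mul_inv_cancel_right, neg_mul_neg, one_mul]
    have hzr : z * r * z = r⁻¹ := by
      rw [hr]
      simp only [mul_inv_rev, inv_inv, hzi]
      simp [mul_assoc, ← mul_assoc z z, hz]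
    refine ⟨⟨r⁻¹ * x, hmemC.mpr ?_⟩, ?_⟩
    · have h3 := d.pow_three r hrR
      have h4 : x * z * x⁻¹ = z * r := by rw [hr, ← mul_assoc, hz, one_mul]
      have h5 : z * r⁻¹ = r * z := by
        calc z * r⁻¹ = z * (z * r * z) := by rw [hzr]
          _ = (z * z) * r * z := by group
          _ = r * z := by rw [hz, one_mul]
      have h6 : r⁻¹ * z = z * r := by
        calc r⁻¹ * z = (z * r * z) * z := by rw [hzr]
          _ = z * r * (z * z) := by group
          _ = z * r := by rw [hz, mul_one]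
      calc r⁻¹ * x * z = r⁻¹ * (x * z * x⁻¹) * x := by group
        _ = (r⁻¹ * z) * r * x := by rw [h4]; group
        _ = z * (r * r) * x := by rw [h6]; group
        _ = z * (r⁻¹ * x) := by
          have : r * r = r⁻¹ := by rw [eq_inv_iff_mul_eq_one, ← pow_two, ← pow_succ]; exact h3
          rw [this, mul_assoc]
    · change d.π (r⁻¹ * x) = g
      rw [map_mul, map_inv, (d.π_ker r).mpr hrR, inv_one, one_mul, hx]
  -- the kernel is `Z`
  have hker : ∀ x : C, (d.π.comp C.subtype) x = 1 → (x : X) ∈ Subgroup.zpowers d.c := fun x hx =>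
    d.mem_Z_of_fixed hz hπ ((d.π_ker _).mp hx) (hmemC.mp x.2).symm
  have hcard : Nat.card C = 72 := by
    have h1 := Subgroup.card_eq_card_quotient_mul_card_subgroup (d.π.comp C.subtype).ker
    rw [Nat.card_congr (QuotientGroup.quotientKerEquivOfSurjective _ hsurj).toEquiv, sl_card] at h1
    have hmemZ : ∀ u ∈ Subgroup.zpowers d.c, u ∈ C := fun u hu => hmemC.mpr (d.Z_comm z hu).symm
    have h2 : Nat.card (d.π.comp C.subtype).ker = 3 := by
      refine Eq.trans ?_ d.card_Z
      refine Nat.card_congr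
        { toFun := fun e => ⟨_, hker e.1 e.2⟩
          invFun := fun u => ⟨⟨u.1, hmemZ _ u.2⟩, (d.π_ker _).mpr (d.zpowers_le_R u.2)⟩
          left_inv := fun _ => rfl
          right_inv := fun _ => rfl }
    rw [h1, h2]
  have h2f : Fact (Nat.Prime 2) := ⟨Nat.prime_two⟩
  let P : Sylow 2 C := default
  let Q : Subgroup X := (P : Subgroup C).map C.subtype
  have hQC : Q ≤ C := Subgroup.map_subtype_le _
  have hQcard : Nat.card Q = 8 := by
    rw [Subgroup.card_subtype, P.card_eq_multiplicity, hcard]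
    have : (72 : ℕ).factorization 2 = 3 := by
      rw [show (72 : ℕ) = 2 ^ 3 * 9 by norm_num, Nat.factorization_mul (by norm_num) (by norm_num),
        Nat.Prime.factorization_pow Nat.prime_two]
      simp [Nat.factorization_eq_zero_of_not_dvd (show ¬ (2 ∣ 9) by norm_num)]
    rw [this]
    norm_num
  have hQ8 : ∀ q ∈ Q, q ^ 8 = 1 := fun q hq => by
    have := pow_card_eq_one' (G := Q) (x := ⟨q, hq⟩)
    rw [hQcard] at this
    exact congrArg Subtype.val this
  have hQinj : ∀ q ∈ Q, d.π q = 1 → q = 1 := by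
    intro q hq h
    have hqR := (d.π_ker q).mp h
    have h3 := d.pow_three q hqR
    calc q = q ^ (3 * 3) * (q ^ 8)⁻¹ := by group
      _ = 1 := by rw [pow_mul, h3, hQ8 q hq]; simp
  -- the image of `Q` is the set of `g` with `g ^ 4 = 1`
  have hQim : ∀ g : SL23, g ^ 4 = 1 → ∃ q ∈ Q, d.π q = g := by
    intro g hg
    let f : Q → {g : SL23 // g ^ 4 = 1} := fun q =>
      ⟨d.π q, sl_pow_four_of_pow_eight _ (by rw [← map_pow, hQ8 q q.2, map_one])⟩
    have hf : Function.Injective f := by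
      intro a b h
      have h' : d.π a = d.π b := congrArg Subtype.val h
      refine Subtype.ext (inv_mul_eq_one.mp ?_)
      exact hQinj _ (Q.mul_mem (Q.inv_mem a.2) b.2) (by rw [map_mul, map_inv, h', inv_mul_cancel])
    have hfb : Function.Bijective f := by
      rw [Nat.bijective_iff_injective_and_card]
      exact ⟨hf, by rw [hQcard, sl_card_pow_four]⟩
    obtain ⟨q, hq⟩ := hfb.2 ⟨g, hg⟩
    exact ⟨q, q.2, congrArg Subtype.val hq⟩
  have hQnormal : ∀ a ∈ C, ∀ q ∈ Q, a * q * a⁻¹ ∈ Q := by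
    intro a ha q hq
    set y := a * q * a⁻¹ with hy
    have hy8 : y ^ 8 = 1 := by rw [hy, conj_pow, hQ8 q hq]; group
    obtain ⟨q', hq', hπq⟩ := hQim (d.π y) (sl_pow_four_of_pow_eight _ (by rw [← map_pow, hy8, map_one]))
    have hyC : y ∈ C := C.mul_mem (C.mul_mem ha (hQC hq)) (C.inv_mem ha)
    have hu : q'⁻¹ * y ∈ Subgroup.zpowers d.c :=
      hker ⟨_, C.mul_mem (C.inv_mem (hQC hq')) hyC⟩
        (show d.π (q'⁻¹ * y) = 1 by rw [map_mul, map_inv, hπq, inv_mul_cancel])
    set u := q'⁻¹ * y with hudef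
    have hyu : y = q' * u := by rw [hudef]; group
    have hu2 : u ^ 2 = 1 := by
      have hu3 := d.pow_three u (d.zpowers_le_R hu)
      have h8 : y ^ 8 = q' ^ 8 * u ^ 8 := by
        rw [hyu]; exact (show Commute q' u from d.Z_comm q' hu).mul_pow 8
      rw [hy8, hQ8 q' hq', one_mul, show 8 = 3 * 2 + 2 from rfl, pow_add, pow_mul, hu3, one_pow,
        one_mul] at h8
      exact h8.symm
    rw [hyu, d.eq_one_of_sq_eq_one (d.zpowers_le_R hu) hu2, mul_one]
    exact hq'
  obtain ⟨x, hxz, hx3, hxπ⟩ := d.exists_x₀ hz hπ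
  have hxC : x ∈ C := hmemC.mpr hxz.symm
  -- the complement
  let H : Subgroup X :=
    { carrier := {h | ∃ q ∈ Q, ∃ k : ℤ, h = q * x ^ k}
      one_mem' := ⟨1, Q.one_mem, 0, by simp⟩
      mul_mem' := by
        rintro _ _ ⟨q, hq, k, rfl⟩ ⟨q', hq', l, rfl⟩
        refine ⟨q * (x ^ k * q' * (x ^ k)⁻¹), Q.mul_mem hq (hQnormal _ (C.zpow_mem hxC k) _ hq'),
          k + l, ?_⟩
        rw [zpow_add]
        group
      inv_mem' := by
        rintro _ ⟨q, hq, k, rfl⟩
        refine ⟨(x ^ k)⁻¹ * q⁻¹ * (x ^ k)⁻¹⁻¹,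
          hQnormal _ (C.inv_mem (C.zpow_mem hxC k)) _ (Q.inv_mem hq), -k, ?_⟩
        group }
  have hHC : H ≤ C := by
    rintro _ ⟨q, hq, k, rfl⟩
    exact C.mul_mem (hQC hq) (C.zpow_mem hxC k)
  have hπ3 : d.π x ^ 3 = 1 := by rw [← map_pow, hx3, map_one]
  have hbij : Function.Bijective (d.π.comp H.subtype) := by
    constructor
    · rw [injective_iff_map_eq_one]
      rintro ⟨h, q, hq, k, rfl⟩ h1
      change d.π (q * x ^ k) = 1 at h1
      have h3 : orderOf (d.π x) = 3 := by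
        have : Fact (Nat.Prime 3) := ⟨Nat.prime_three⟩
        exact orderOf_eq_prime hπ3 hxπ
      have h4 : (d.π x ^ k) ^ (8 : ℕ) = 1 := by
        rw [map_mul, map_zpow] at h1
        rw [(eq_inv_of_mul_eq_one_right h1), inv_pow, ← map_pow, hQ8 q hq, map_one, inv_one]
      have h5 : (3 : ℤ) ∣ k * 8 := by
        rw [← zpow_natCast, ← zpow_mul] at h4
        have := orderOf_dvd_iff_zpow_eq_one.mpr h4
        rw [h3] at this
        exact_mod_cast this
      have h6 : (3 : ℤ) ∣ k := by omega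
      obtain ⟨j, rfl⟩ := h6
      have hxj : x ^ (3 * j) = 1 := by
        rw [zpow_mul]; norm_cast; rw [hx3, one_zpow]
      refine Subtype.ext ?_
      change q * x ^ (3 * j) = 1
      rw [hxj, mul_one] at h1 ⊢
      exact hQinj q hq h1
    · intro g
      obtain ⟨i, hi⟩ := sl_four_mul_pow (d.π x) g hπ3 hxπ
      obtain ⟨q, hq, hqπ⟩ := hQim _ hi
      refine ⟨⟨q * x ^ (-((i : ℕ) : ℤ)), q, hq, _, rfl⟩, ?_⟩
      change d.π (q * x ^ (-((i : ℕ) : ℤ))) = g
      rw [map_mul, map_zpow, hqπ, zpow_neg, zpow_natCast, mul_inv_cancel_right]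
  refine ⟨H.subtype.comp (MulEquiv.ofBijective _ hbij).symm.toMonoidHom, fun g => ?_, fun g => ?_⟩
  · exact (MulEquiv.ofBijective (d.π.comp H.subtype) hbij).apply_symm_apply g
  · exact (hmemC.mp (hHC ((MulEquiv.ofBijective (d.π.comp H.subtype) hbij).symm g).2)).symm

end Setup

end CfsgLib.ShapeThreeSL
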