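import Cfsg.Agent.ShapeThreeSL.Complement
import Mathlib.Data.ZMod.Basic

/-!
Coordinates on a group of shape `3^{1+2} : SL(2,3)` and the uniqueness of its isomorphism type.
-/

set_option autoImplicit false

namespace CfsgLib.ShapeThreeSL

open scoped MatrixGroups

local notation "SL23" => Matrix.SpecialLinearGroup (Fin 2) (ZMod 3)
local notation "Tr" => ZMod 3 × ZMod 3 × ZMod 3

/-- The multiplication of coordinate triples. -/
def hmul (p q : Tr) : Tr :=
  (p.1 + q.1, p.2.1 + q.2.1, p.2.2 + q.2.2 + p.1 * q.2.1 - p.2.1 * q.1)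

/-- The action of `SL(2,3)` on coordinate triples. -/
def hact (A : SL23) (p : Tr) : Tr :=
  (A.1 0 0 * p.1 + A.1 0 1 * p.2.1, A.1 1 0 * p.1 + A.1 1 1 * p.2.1, p.2.2)

variable {X : Type*} [Group X] [Finite X]

/-- Powers indexed by `ZMod 3`. -/
def pw (g : X) (i : ZMod 3) : X := g ^ i.val

omit [Finite X] in
theorem pw_add {g : X} (hg : g ^ 3 = 1) (i j : ZMod 3) : pw g (i + j) = pw g i * pw g j := by
  rw [pw, pw, pw, ← pow_add, ZMod.val_add]
  exact (pow_eq_pow_mod (i.val + j.val) hg).symm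

omit [Finite X] in
theorem pw_natCast {g : X} (hg : g ^ 3 = 1) (n : ℕ) : pw g (n : ZMod 3) = g ^ n := by
  rw [pw, ZMod.val_natCast]
  exact (pow_eq_pow_mod n hg).symm

omit [Finite X] in
theorem pw_zero (g : X) : pw g 0 = 1 := by simp [pw]

omit [Finite X] in
theorem pw_neg {g : X} (hg : g ^ 3 = 1) (i : ZMod 3) : pw g (-i) = (pw g i)⁻¹ := by
  rw [eq_inv_iff_mul_eq_one, ← pw_add hg, neg_add_cancel, pw_zero]

omit [Finite X] in
theorem pw_eq_self {g : X} {i : ZMod 3} (hg : g ^ 3 = 1) (hi : i ≠ 0) : g = pw (pw g i) i := by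
  have h : i.val * i.val % 3 = 1 := by revert hi; revert i; decide
  rw [pw, pw, ← pow_mul, pow_eq_pow_mod _ hg, h, pow_one]

namespace Setup

variable (d : Setup X) {z : X}

theorem exists_inverted_mul (hz : z * z = 1) (hπ : d.π z = -1) {r : X} (hr : r ∈ d.R) :
    ∃ u ∈ Subgroup.zpowers d.c, z * (r * u) * z = (r * u)⁻¹ := by
  obtain ⟨u, hudef⟩ : ∃ u, u = r * (z * r * z) := ⟨_, rfl⟩
  have hu : u ∈ Subgroup.zpowers d.c := hudef ▸ d.inverts_mod hz hπ hr
  refine ⟨u, hu, ?_⟩
  have h3 := d.pow_three u (d.zpowers_le_R hu)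
  have huu : u * u = u⁻¹ := by rw [eq_inv_iff_mul_eq_one, ← pow_two, ← pow_succ]; exact h3
  have h1 : z * r * z = r⁻¹ * u := by rw [hudef]; group
  have hzu : z * u * z = u := by rw [d.Z_comm z hu, mul_assoc, hz, mul_one]
  calc z * (r * u) * z = (z * r) * (z * z) * (u * z) := by rw [hz]; group
    _ = (z * r * z) * (z * u * z) := by group
    _ = r⁻¹ * (u * u) := by rw [h1, hzu, mul_assoc]
    _ = r⁻¹ * u⁻¹ := by rw [huu]
    _ = (r * u)⁻¹ := by
      rw [mul_inv_rev]
      exact d.Z_comm r⁻¹ (inv_mem hu)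

include d in
theorem exists_coords : ∃ (f : Tr → X) (σ : SL23 →* X),
    (∀ p q, f p * f q = f (hmul p q)) ∧ (∀ A p, σ A * f p = f (hact A p) * σ A) ∧
    (∀ x : X, ∃ p A, x = f p * σ A) := by
  classical
  obtain ⟨z, hz, hπ⟩ := d.exists_z
  have hzi : z⁻¹ = z := inv_eq_of_mul_eq_one_left hz
  obtain ⟨σ, hσπ, hσz⟩ := d.exists_section hz hπ
  obtain ⟨r, hr, hrZ⟩ := d.exists_not_Z
  obtain ⟨u, hu, hau⟩ := d.exists_inverted_mul hz hπ hr
  obtain ⟨a, hadef⟩ : ∃ a, a = r * u := ⟨_, rfl⟩
  rw [← hadef] at hau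
  have haR : a ∈ d.R := hadef ▸ d.R.mul_mem hr (d.zpowers_le_R hu)
  have haZ : a ∉ Subgroup.zpowers d.c := fun h => hrZ (by
    have := mul_mem h (inv_mem hu)
    rwa [hadef, mul_inv_cancel_right] at this)
  obtain ⟨s, hs, has⟩ : ∃ s ∈ d.R, a * s ≠ s * a := by
    by_contra h
    push_neg at h
    exact haZ ((d.center_eq a haR).mp h)
  obtain ⟨v, hv, hbv⟩ := d.exists_inverted_mul hz hπ hs
  obtain ⟨b, hbdef⟩ : ∃ b, b = s * v := ⟨_, rfl⟩
  rw [← hbdef] at hbv
  have hbR : b ∈ d.R := hbdef ▸ d.R.mul_mem hs (d.zpowers_le_R hv)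
  have hab : a * b ≠ b * a := fun h => has (by
    have h1 : Commute a b := h
    have h2 := h1.mul_right (Commute.inv_right (d.Z_comm a hv))
    rwa [hbdef, mul_inv_cancel_right] at h2)
  obtain ⟨c, hcdef⟩ : ∃ c, c = (a * b * a⁻¹ * b⁻¹)⁻¹ := ⟨_, rfl⟩
  have hc : c ∈ Subgroup.zpowers d.c := hcdef ▸ inv_mem (d.comm_mem a haR b hbR)
  have hcR := d.zpowers_le_R hc
  have hcc : ∀ x : X, Commute x c := fun x => d.Z_comm x hc
  have hc1 : c ≠ 1 := fun h => hab (by
    rw [hcdef, inv_eq_one, mul_inv_eq_one, mul_inv_eq_iff_eq_mul] at h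
    exact h)
  have ha3 := d.pow_three a haR
  have hb3 := d.pow_three b hbR
  have hc3 := d.pow_three c hcR
  have hba : b * a = a * b * c := by
    rw [(hcc (a * b)).eq, hcdef]; group
  have hbam : ∀ m : ℕ, b * a ^ m = a ^ m * b * c ^ m := by
    intro m
    induction m with
    | zero => simp
    | succ m ih =>
      calc b * a ^ (m + 1) = (b * a ^ m) * a := by rw [pow_succ, mul_assoc]
        _ = a ^ m * b * (c ^ m * a) := by rw [ih]; group
        _ = a ^ m * (b * a) * c ^ m := by rw [((hcc a).pow_right m).eq.symm]; group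
        _ = a ^ (m + 1) * b * c ^ (m + 1) := by rw [hba, pow_succ a, pow_succ' c]; group
  have hbnam : ∀ n m : ℕ, b ^ n * a ^ m = a ^ m * b ^ n * c ^ (n * m) := by
    intro n m
    induction n with
    | zero => simp
    | succ n ih =>
      calc b ^ (n + 1) * a ^ m = b * (b ^ n * a ^ m) := by rw [pow_succ', mul_assoc]
        _ = (b * a ^ m) * b ^ n * c ^ (n * m) := by rw [ih]; group
        _ = a ^ m * b * (c ^ m * b ^ n) * c ^ (n * m) := by rw [hbam]; group
        _ = a ^ m * b * b ^ n * (c ^ m * c ^ (n * m)) := by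
          rw [(((hcc b).pow_pow n m)).eq.symm]; group
        _ = a ^ m * b ^ (n + 1) * c ^ ((n + 1) * m) := by
          rw [pow_succ' b, ← pow_add, show (n + 1) * m = m + n * m by ring]; group
  let f : Tr → X := fun p => pw a p.1 * pw b p.2.1 * pw c (p.2.2 - p.1 * p.2.1)
  have hfmul : ∀ p q, f p * f q = f (hmul p q) := by
    rintro ⟨i, j, t⟩ ⟨k, l, w⟩
    have hswap : pw b j * pw a k = pw a k * pw b j * pw c (j * k) := by
      change b ^ j.val * a ^ k.val = a ^ k.val * b ^ j.val * pw c (j * k)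
      rw [hbnam, ← pw_natCast hc3, Nat.cast_mul, ZMod.natCast_zmod_val, ZMod.natCast_zmod_val]
    have hcp : ∀ (y : X) (e : ZMod 3), Commute y (pw c e) := fun y e => (hcc y).pow_right _
    change pw a i * pw b j * pw c (t - i * j) * (pw a k * pw b l * pw c (w - k * l)) = _
    calc pw a i * pw b j * pw c (t - i * j) * (pw a k * pw b l * pw c (w - k * l))
        = pw a i * pw b j * (pw c (t - i * j) * pw a k) * pw b l * pw c (w - k * l) := by group
      _ = pw a i * (pw b j * pw a k) * (pw c (t - i * j) * pw b l) * pw c (w - k * l) := by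
        rw [(hcp (pw a k) (t - i * j)).eq.symm]; group
      _ = pw a i * pw a k * pw b j * (pw c (j * k) * pw b l) * pw c (t - i * j) * pw c (w - k * l) := by
        rw [hswap, (hcp (pw b l) (t - i * j)).eq.symm]; group
      _ = pw a (i + k) * pw b (j + l) * pw c (j * k + (t - i * j) + (w - k * l)) := by
        rw [(hcp (pw b l) (j * k)).eq.symm, pw_add ha3, pw_add hb3, pw_add hc3, pw_add hc3]; group
      _ = _ := by
        change _ = pw a (i + k) * pw b (j + l) * pw c (t + w + i * l - j * k - (i + k) * (j + l))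
        congr 2
        have h3 : (3 : ZMod 3) = 0 := by decide
        linear_combination (j * k) * h3
  have hf1 : f (0, 0, 0) = 1 := by simp [f, pw_zero]
  have hfker : ∀ p, f p = 1 → p = (0, 0, 0) := by
    rintro ⟨i, j, t⟩ h
    change pw a i * pw b j * pw c (t - i * j) = 1 at h
    have hij : pw a i = (pw b j)⁻¹ * (pw c (t - i * j))⁻¹ := by
      have h2 : pw a i * (pw b j * pw c (t - i * j)) = 1 := by rw [← mul_assoc]; exact h
      rw [eq_inv_of_mul_eq_one_left h2, mul_inv_rev]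
      exact (((hcc _).pow_right _).inv_right.inv_left).eq.symm
    have hi : i = 0 := by
      by_contra hi
      apply hab
      have h1 : Commute (pw a i) b := by
        rw [hij]
        exact Commute.mul_left ((Commute.self_pow b _).symm.inv_left) (((hcc b).pow_right _).symm.inv_left)
      have h2 := h1.pow_left i.val
      rw [show pw a i ^ i.val = a from (pw_eq_self ha3 hi).symm] at h2
      exact h2
    have hj : j = 0 := by
      by_contra hj
      apply hab
      rw [hi, pw_zero, one_mul] at h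
      have h1 : Commute a (pw b j) := by
        rw [eq_inv_of_mul_eq_one_left h]
        exact ((hcc a).pow_right _).inv_right
      have h2 := h1.pow_right j.val
      rw [show pw b j ^ j.val = b from (pw_eq_self hb3 hj).symm] at h2
      exact h2
    rw [hi, hj, pw_zero, pw_zero, one_mul, one_mul, zero_mul, sub_zero] at h
    have ht : t = 0 := by
      by_contra ht
      apply hc1
      rw [pw_eq_self hc3 ht, h]
      simp [pw]
    simp [hi, hj, ht]
  have hfinv : ∀ i j t, (f (i, j, t))⁻¹ = f (-i, -j, -t) := by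
    intro i j t
    rw [inv_eq_iff_mul_eq_one, hfmul, ← hf1]
    congr 1
    simp [hmul, mul_comm]
  have hfinj : Function.Injective f := by
    rintro ⟨i, j, t⟩ ⟨k, l, w⟩ h
    have h1 : f (-i, -j, -t) * f (k, l, w) = 1 := by rw [← h, ← hfinv, inv_mul_cancel]
    rw [hfmul] at h1
    have h2 := hfker _ h1
    simp only [hmul, Prod.mk.injEq] at h2
    obtain ⟨e1, e2, e3⟩ := h2
    have hik : i = k := by linear_combination -e1
    have hjl : j = l := by linear_combination -e2
    subst hik hjl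
    have htw : t = w := by linear_combination -e3
    rw [htw]
  have hfR : ∀ p, f p ∈ d.R := fun p =>
    d.R.mul_mem (d.R.mul_mem (d.R.pow_mem haR _) (d.R.pow_mem hbR _)) (d.R.pow_mem hcR _)
  have hfsurj : ∀ x ∈ d.R, ∃ p, f p = x := by
    intro x hx
    have hb : Function.Bijective (fun p => (⟨f p, hfR p⟩ : d.R)) := by
      rw [Nat.bijective_iff_injective_and_card]
      refine ⟨fun p q h => hfinj (congrArg Subtype.val h), ?_⟩
      rw [Nat.card_prod, Nat.card_prod, Nat.card_zmod, d.card_R]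
    obtain ⟨p, hp⟩ := hb.2 ⟨x, hx⟩
    exact ⟨p, congrArg Subtype.val hp⟩
  have hzconj : ∀ i j t, z * f (i, j, t) * z = f (-i, -j, t) := by
    intro i j t
    have hpw : ∀ (g : X), g ^ 3 = 1 → z * g * z = g⁻¹ → ∀ e : ZMod 3, z * pw g e * z = pw g (-e) := by
      intro g hg hgi e
      have := conj_pow (i := e.val) (a := z) (b := g)
      rw [hzi, hgi, inv_pow] at this
      rw [pw_neg hg]
      exact this.symm
    change z * (pw a i * pw b j * pw c (t - i * j)) * z = pw a (-i) * pw b (-j) * pw c (t - (-i) * (-j))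
    rw [neg_mul_neg, ← hpw a ha3 hau, ← hpw b hb3 hbv]
    calc z * (pw a i * pw b j * pw c (t - i * j)) * z
        = z * pw a i * (z * z) * pw b j * (pw c (t - i * j) * z) := by rw [hz]; group
      _ = z * pw a i * z * (z * pw b j * z) * pw c (t - i * j) := by
        rw [(show Commute z (pw c (t - i * j)) from (hcc z).pow_right _).eq.symm]; group
  -- conjugation by the complement
  have hexL : ∀ (g : SL23) (v : ZMod 3 × ZMod 3), ∃ w : ZMod 3 × ZMod 3,
      σ g * f (v.1, v.2, 0) * (σ g)⁻¹ = f (w.1, w.2, 0) := by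
    intro g v
    obtain ⟨⟨k, l, w⟩, hp⟩ := hfsurj _ (d.normal.conj_mem _ (hfR (v.1, v.2, 0)) (σ g))
    refine ⟨(k, l), ?_⟩
    rw [← hp]
    have h1 : z * f (k, l, w) * z = (f (k, l, w))⁻¹ := by
      rw [hp]
      have h2 : z * σ g * z = σ g := by rw [hσz, mul_assoc, hz, mul_one]
      calc z * (σ g * f (v.1, v.2, 0) * (σ g)⁻¹) * z
          = z * σ g * (z * z) * f (v.1, v.2, 0) * (z * z) * (σ g)⁻¹ * z := by rw [hz]; group
        _ = (z * σ g * z) * (z * f (v.1, v.2, 0) * z) * (z * σ g * z)⁻¹ := by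
          rw [mul_inv_rev, mul_inv_rev, hzi]; group
        _ = (σ g * f (v.1, v.2, 0) * (σ g)⁻¹)⁻¹ := by
          rw [h2, hzconj, show ((-v.1, -v.2, (0 : ZMod 3)) : Tr) = (-v.1, -v.2, -0) by rw [neg_zero],
            ← hfinv]
          group
    rw [hzconj, hfinv] at h1
    have h3 := hfinj h1
    simp only [Prod.mk.injEq] at h3
    have hw0 : w = 0 := by
      have := h3.2.2
      have key : ∀ e : ZMod 3, e = -e → e = 0 := by decide
      exact key w this
    rw [hw0]
  choose L hL using hexL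
  have hcentral : ∀ (g : SL23) (t : ZMod 3), σ g * f (0, 0, t) * (σ g)⁻¹ = f (0, 0, t) := by
    intro g t
    have h1 : Commute (σ g) (f (0, 0, t)) := by
      change Commute (σ g) (pw a 0 * pw b 0 * pw c (t - 0 * 0))
      rw [pw_zero, pw_zero, one_mul, one_mul]
      exact (hcc _).pow_right _
    rw [h1.eq, mul_inv_cancel_right]
  have hconj : ∀ g i j t, σ g * f (i, j, t) * (σ g)⁻¹ = f ((L g (i, j)).1, (L g (i, j)).2, t) := by
    intro g i j t
    have h1 : f (i, j, t) = f (i, j, 0) * f (0, 0, t) := by rw [hfmul]; simp [hmul]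
    rw [h1, ← conj_mul, hL g (i, j), hcentral, hfmul]
    simp [hmul]
  have hLadd : ∀ g v w, L g (v + w) = L g v + L g w ∧
      (L g v).1 * (L g w).2 - (L g v).2 * (L g w).1 = v.1 * w.2 - v.2 * w.1 := by
    intro g v w
    have h1 : f ((L g v).1, (L g v).2, 0) * f ((L g w).1, (L g w).2, 0) =
        σ g * f (hmul (v.1, v.2, 0) (w.1, w.2, 0)) * (σ g)⁻¹ := by
      rw [← hfmul (v.1, v.2, 0), ← conj_mul, hL g v, hL g w]
    rw [hfmul] at h1
    simp only [hmul, hconj, add_zero, zero_add] at h1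
    rw [show (v.1 + w.1, v.2 + w.2) = v + w from rfl] at h1
    have h2 := hfinj h1
    simp only [Prod.mk.injEq] at h2
    obtain ⟨e1, e2, e3⟩ := h2
    refine ⟨(Prod.ext e1 e2).symm, ?_⟩
    linear_combination e3
  have hLlin : ∀ g (i j : ZMod 3), L g (i, j) = i • L g (1, 0) + j • L g (0, 1) := by
    intro g i j
    let φ : ZMod 3 × ZMod 3 →+ ZMod 3 × ZMod 3 := AddMonoidHom.mk' (L g) fun v w => (hLadd g v w).1
    have h1 : L g (i, j) = φ (i • (1, 0) + j • (0, 1)) := by simp [φ]
    rw [h1, map_add, ZMod.map_smul, ZMod.map_smul]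
    rfl
  let M : SL23 → SL23 := fun g =>
    ⟨!![(L g (1, 0)).1, (L g (0, 1)).1; (L g (1, 0)).2, (L g (0, 1)).2], by
      rw [Matrix.det_fin_two_of]
      have := (hLadd g (1, 0) (0, 1)).2
      linear_combination this⟩
  have hMact : ∀ g i j t, σ g * f (i, j, t) = f (hact (M g) (i, j, t)) * σ g := by
    intro g i j t
    rw [← mul_inv_eq_iff_eq_mul, hconj, hLlin]
    congr 1
    simp [hact, M, mul_comm]
  have hMmul : ∀ g h, M (g * h) = M g * M h := by
    intro g h
    have key : ∀ v, L (g * h) v = L g (L h v) := by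
      intro v
      have h1 := hL (g * h) v
      have h2 : σ (g * h) * f (v.1, v.2, 0) * (σ (g * h))⁻¹ =
          σ g * (σ h * f (v.1, v.2, 0) * (σ h)⁻¹) * (σ g)⁻¹ := by rw [map_mul]; group
      rw [h2, hL h v, hL g (L h v)] at h1
      have h3 := hfinj h1
      simp only [Prod.mk.injEq] at h3
      exact Prod.ext h3.1.symm h3.2.1.symm
    have h4 : ∀ v : ZMod 3 × ZMod 3, L g v = v.1 • L g (1, 0) + v.2 • L g (0, 1) := fun v => hLlin g v.1 v.2
    apply Subtype.ext
    change !![(L (g * h) (1, 0)).1, (L (g * h) (0, 1)).1; (L (g * h) (1, 0)).2, (L (g * h) (0, 1)).2] =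
      !![(L g (1, 0)).1, (L g (0, 1)).1; (L g (1, 0)).2, (L g (0, 1)).2] *
        !![(L h (1, 0)).1, (L h (0, 1)).1; (L h (1, 0)).2, (L h (0, 1)).2]
    rw [key, key, h4 (L h (1, 0)), h4 (L h (0, 1))]
    ext i j
    fin_cases i <;> fin_cases j <;> simp [Matrix.mul_apply, Fin.sum_univ_two, mul_comm]
  let ψ : SL23 →* SL23 := MonoidHom.mk' M hMmul
  have hψinj : Function.Injective ψ := by
    rw [injective_iff_map_eq_one]
    intro g hg
    by_contra hne
    have hx : σ g ∉ d.R := fun h => hne (by rw [← hσπ g]; exact (d.π_ker _).mpr h)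
    obtain ⟨y, hy, hy'⟩ := d.not_trivial_mod hx
    obtain ⟨⟨i, j, t⟩, rfl⟩ := hfsurj y hy
    apply hy'
    have hg' : M g = 1 := hg
    rw [hMact, hg', mul_inv_cancel_right]
    simp [hact]
  have hψ : Function.Bijective ψ := ⟨hψinj, Finite.surjective_of_injective hψinj⟩
  refine ⟨f, σ.comp (MulEquiv.ofBijective ψ hψ).symm.toMonoidHom, hfmul, fun A p => ?_, fun x => ?_⟩
  · obtain ⟨i, j, t⟩ := p
    obtain ⟨g, rfl⟩ := hψ.2 A
    have : (MulEquiv.ofBijective ψ hψ).symm (ψ g) = g := (MulEquiv.ofBijective ψ hψ).symm_apply_apply g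
    simp only [MonoidHom.coe_comp, MulEquiv.coe_toMonoidHom, Function.comp_apply, this]
    exact hMact g i j t
  · have hr : x * (σ (d.π x))⁻¹ ∈ d.R := by
      rw [← d.π_ker, map_mul, map_inv, hσπ, mul_inv_cancel]
    obtain ⟨p, hp⟩ := hfsurj _ hr
    refine ⟨p, ψ (d.π x), ?_⟩
    have : (MulEquiv.ofBijective ψ hψ).symm (ψ (d.π x)) = d.π x :=
      (MulEquiv.ofBijective ψ hψ).symm_apply_apply _
    simp only [MonoidHom.coe_comp, MulEquiv.coe_toMonoidHom, Function.comp_apply, this]
    rw [hp, inv_mul_cancel_right]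

theorem card_X (d : Setup X) : Nat.card X = 648 := by
  have := d.normal
  have h : Nat.card (X ⧸ d.R) = 24 := by
    have hker : d.π.ker = d.R := by ext x; exact d.π_ker x
    rw [← sl_card, ← hker]
    exact Nat.card_congr (QuotientGroup.quotientKerEquivOfSurjective _ d.π_surj).toEquiv
  rw [Subgroup.card_eq_card_quotient_mul_card_subgroup d.R, h, d.card_R]

/-- A group of this shape is isomorphic to any group with the same multiplication rules. -/
theorem nonempty_mulEquiv (d : Setup X) {G : Type*} [Group G] [Finite G] (hG : Nat.card G = 648)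
    (U : Tr → G) (τ : SL23 →* G) (hU : ∀ p q, U p * U q = U (hmul p q))
    (hτ : ∀ A p, τ A * U p = U (hact A p) * τ A)
    (hinj : ∀ p A q B, U p * τ A = U q * τ B → p = q ∧ A = B) : Nonempty (X ≃* G) := by
  classical
  obtain ⟨f, σ, hfmul, hσ, hsurj⟩ := d.exists_coords
  let Θ : Tr × SL23 → X := fun p => f p.1 * σ p.2
  let Ξ : Tr × SL23 → G := fun p => U p.1 * τ p.2
  have hΘ : Function.Bijective Θ := by
    rw [Nat.bijective_iff_surjective_and_card]
    refine ⟨fun x => ?_, ?_⟩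
    · obtain ⟨p, A, rfl⟩ := hsurj x
      exact ⟨(p, A), rfl⟩
    · rw [Nat.card_prod, Nat.card_prod, Nat.card_prod, Nat.card_zmod, sl_card, d.card_X]
  have hΞ : Function.Bijective Ξ := by
    rw [Nat.bijective_iff_injective_and_card]
    refine ⟨fun p q h => Prod.ext (hinj _ _ _ _ h).1 (hinj _ _ _ _ h).2, ?_⟩
    rw [Nat.card_prod, Nat.card_prod, Nat.card_prod, Nat.card_zmod, sl_card, hG]
  refine ⟨{ toEquiv := (Equiv.ofBijective Θ hΘ).symm.trans (Equiv.ofBijective Ξ hΞ), map_mul' := ?_ }⟩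
  intro x y
  obtain ⟨⟨p, A⟩, rfl⟩ := hΘ.2 x
  obtain ⟨⟨q, B⟩, rfl⟩ := hΘ.2 y
  have h1 : Θ (p, A) * Θ (q, B) = Θ (hmul p (hact A q), A * B) := by
    change f p * σ A * (f q * σ B) = f (hmul p (hact A q)) * σ (A * B)
    rw [mul_assoc, ← mul_assoc (σ A), hσ, ← mul_assoc, ← mul_assoc, hfmul, mul_assoc, ← map_mul]
  have h2 : Ξ (p, A) * Ξ (q, B) = Ξ (hmul p (hact A q), A * B) := by
    change U p * τ A * (U q * τ B) = U (hmul p (hact A q)) * τ (A * B)
    rw [mul_assoc, ← mul_assoc (τ A), hτ, ← mul_assoc, ← mul_assoc, hU, mul_assoc, ← map_mul]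
  simp only [Equiv.toFun_as_coe, Equiv.trans_apply, h1]
  rw [Equiv.ofBijective_symm_apply_apply, Equiv.ofBijective_symm_apply_apply,
    Equiv.ofBijective_symm_apply_apply]
  simp only [Equiv.ofBijective_apply, h2]

end Setup

end CfsgLib.ShapeThreeSL
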