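import Cfsg.Agent.Eq.Def_Solvable
import Cfsg.Agent.CharP.PCore
import Mathlib.LinearAlgebra.Matrix.SpecialLinearGroup
import Mathlib.GroupTheory.SpecificGroups.Cyclic

/-!
Groups of shape `3^{1+2} : SL(2,3)`: a central involution of a complement and its centralizer.
-/

set_option autoImplicit false

namespace CfsgLib.ShapeThreeSL

open Matrix
open scoped MatrixGroups

local notation "SL23" => Matrix.SpecialLinearGroup (Fin 2) (ZMod 3)

/-- Every nontrivial element of `SL(2,3)` has `-1` in its normal closure, in an explicit way. -/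
theorem sl_neg_one_cases : ∀ g : SL23, g ≠ 1 →
    g = -1 ∨ g ^ 2 = -1 ∨ g ^ 3 = -1 ∨ ∃ h : SL23, (g * h * g⁻¹ * h⁻¹) ^ 2 = -1 := by
  decide +kernel

/-- The elements of `2`-power order of `SL(2,3)` are closed under products. -/
theorem sl_pow_four_mul : ∀ g h : SL23, g ^ 4 = 1 → h ^ 4 = 1 → (g * h) ^ 4 = 1 := by
  decide +kernel

theorem sl_pow_four_of_pow_eight : ∀ g : SL23, g ^ 8 = 1 → g ^ 4 = 1 := by
  decide +kernel

theorem sl_exists_order_three : ∃ g : SL23, g ^ 3 = 1 ∧ g ≠ 1 := by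
  decide +kernel

theorem sl_card : Nat.card SL23 = 24 := by
  rw [Nat.card_eq_fintype_card]
  decide +kernel

theorem sl_neg_one_mem_normal {N : Subgroup SL23} [hN : N.Normal] {g : SL23} (hg : g ∈ N) (h1 : g ≠ 1) :
    (-1 : SL23) ∈ N := by
  rcases sl_neg_one_cases g h1 with h | h | h | ⟨k, h⟩
  · rwa [h] at hg
  · rw [← h]; exact N.pow_mem hg 2
  · rw [← h]; exact N.pow_mem hg 3
  · rw [← h]
    refine N.pow_mem ?_ 2
    rw [mul_assoc, mul_assoc, ← mul_assoc k]
    exact N.mul_mem hg (hN.conj_mem _ (N.inv_mem hg) k)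

/-- The hypotheses: an extraspecial normal subgroup `R` of order 27 and exponent 3 with centre generated
by `c`, quotient `SL(2,3)`, trivial `O₂`, and an elementary abelian subgroup of order 27. -/
structure Setup (X : Type*) [Group X] where
  R : Subgroup X
  normal : R.Normal
  card_R : Nat.card R = 27
  pow_three : ∀ r ∈ R, r ^ 3 = 1
  c : X
  c_mem : c ∈ R
  c_ne : c ≠ 1
  center_eq : ∀ r ∈ R, (∀ s ∈ R, r * s = s * r) ↔ r ∈ Subgroup.zpowers c
  comm_mem : ∀ r ∈ R, ∀ s ∈ R, r * s * r⁻¹ * s⁻¹ ∈ Subgroup.zpowers c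
  π : X →* SL23
  π_surj : Function.Surjective π
  π_ker : ∀ x, π x = 1 ↔ x ∈ R
  O2 : ∀ N : Subgroup X, N.Normal → IsPGroup 2 N → N = ⊥
  E : Subgroup X
  E_comm : ∀ a ∈ E, ∀ b ∈ E, a * b = b * a
  E_pow : ∀ a ∈ E, a ^ 3 = 1
  card_E : Nat.card E = 27

end CfsgLib.ShapeThreeSL
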